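/-
S2510/S2513 (helper58's SpecProd project), package [PRIM]: a matrix of `SL_n(q)` whose
characteristic polynomial is a power of an irreducible polynomial has image of order dividing
`p ^ T * sig q n` in `PSL_n(q)`.  (helper1)
-/
import Mathlib
import Cfsg.Agent.Lib.Helper58.SpecProd.Defs

set_option autoImplicit false

namespace Cfsg.Agent.Lib.Helper1.SpecProd

open Cfsg.Agent.Lib.Helper58.SpecProd Polynomial

universe u

/-- Package [PRIM]. -/
theorem pkgPrim_of (hPF : PkgPrimField.{u}) : PkgPrim.{u} := by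
  intro F _ _ p a n hp hcard hn A f e hirr hmon he hchar
  classical
  have : Fact p.Prime := ⟨hp⟩
  have hchp : CharP F p := charP_of_card_eq_prime_pow hcard
  -- degrees
  have hdeg : n = f.natDegree * e := by
    have h1 := Matrix.charpoly_natDegree_eq_dim (A : Matrix (Fin n) (Fin n) F)
    rw [hchar, Polynomial.natDegree_pow, Fintype.card_fin] at h1
    rw [← h1, mul_comm]
  -- the determinant
  have hdet : ((-1) ^ f.natDegree * f.coeff 0) ^ e = 1 := by
    have h1 := Matrix.det_eq_sign_charpoly_coeff (A : Matrix (Fin n) (Fin n) F)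
    rw [A.det_coe, hchar, Fintype.card_fin] at h1
    have h2 : (f ^ e).coeff 0 = (f.coeff 0) ^ e := by
      rw [Polynomial.coeff_zero_eq_eval_zero, Polynomial.eval_pow,
        ← Polynomial.coeff_zero_eq_eval_zero]
    rw [h2, hdeg, pow_mul] at h1
    rw [mul_pow]
    exact h1.symm
  obtain ⟨c, hc⟩ := hPF f e hirr hmon he hdet
  rw [← hdeg] at hc
  refine ⟨e, ?_⟩
  have h1 : f ^ e ∣ (X ^ sig (Fintype.card F) n - C c) ^ (p ^ e) := by
    have hle : e ≤ p ^ e := (Nat.lt_pow_self hp.one_lt).le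
    exact (pow_dvd_pow f hle).trans (pow_dvd_pow_of_dvd hc _)
  have h2 : (X ^ sig (Fintype.card F) n - C c : F[X]) ^ (p ^ e) =
      X ^ (p ^ e * sig (Fintype.card F) n) - C (c ^ (p ^ e)) := by
    rw [sub_pow_char_pow, ← pow_mul, ← C_pow, mul_comm]
  rw [h2, ← hchar] at h1
  have h3 : Polynomial.aeval (A : Matrix (Fin n) (Fin n) F)
      (X ^ (p ^ e * sig (Fintype.card F) n) - C (c ^ (p ^ e)) : F[X]) = 0 := by
    obtain ⟨g, hg⟩ := h1
    rw [hg, map_mul, Matrix.aeval_self_charpoly, zero_mul]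
  have h4 : (A : Matrix (Fin n) (Fin n) F) ^ (p ^ e * sig (Fintype.card F) n) =
      Matrix.scalar (Fin n) (c ^ (p ^ e)) := by
    rw [map_sub, map_pow, Polynomial.aeval_X, Polynomial.aeval_C, sub_eq_zero] at h3
    rw [h3]
    rfl
  rw [← QuotientGroup.mk_pow, QuotientGroup.eq_one_iff,
    Matrix.SpecialLinearGroup.mem_center_iff]
  refine ⟨c ^ (p ^ e), ?_, ?_⟩
  · have h5 : (A ^ (p ^ e * sig (Fintype.card F) n) :
        Matrix.SpecialLinearGroup (Fin n) F).1.det = 1 :=
      (A ^ (p ^ e * sig (Fintype.card F) n)).2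
    have h6 : ((A ^ (p ^ e * sig (Fintype.card F) n) :
        Matrix.SpecialLinearGroup (Fin n) F) : Matrix (Fin n) (Fin n) F) =
        Matrix.scalar (Fin n) (c ^ (p ^ e)) := by
      rw [Matrix.SpecialLinearGroup.coe_pow, h4]
    have h7 : (Matrix.scalar (Fin n) (c ^ (p ^ e))).det = (c ^ (p ^ e)) ^ Fintype.card (Fin n) := by
      rw [Matrix.scalar_apply, Matrix.det_diagonal, Finset.prod_const, Finset.card_univ]
    rw [← h7, ← h6]
    exact h5
  · rw [Matrix.SpecialLinearGroup.coe_pow, h4]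

end Cfsg.Agent.Lib.Helper1.SpecProd
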