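/-
S2510/S2513 (helper58's SpecProd project), package [Z]: an element of order `r` of `PSL_n(q)`,
`r ∣ q - 1`, `r ∤ n`.  (helper1)
-/
import Mathlib
import Cfsg.Agent.Lib.Helper58.SpecProd.Defs

set_option autoImplicit false

namespace Cfsg.Agent.Lib.Helper1.SpecProd

open Cfsg.Agent.Lib.Helper58.SpecProd

universe u

/-- Package [Z]. -/
theorem pkgZ : PkgZ.{u} := by
  intro F _ _ n r hn hr hdvd hrn
  classical
  have : Fact r.Prime := ⟨hr⟩
  obtain ⟨m, rfl⟩ : ∃ m, n = m + 1 := ⟨n - 1, by omega⟩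
  have hm1 : 0 < m := by omega
  have hcard : r ∣ Fintype.card Fˣ := by rw [Fintype.card_units]; exact hdvd
  obtain ⟨ζ, hζ⟩ := exists_prime_orderOf_dvd_card r hcard
  have hζr : (ζ : F) ^ r = 1 := by
    have : ζ ^ r = 1 := by rw [← hζ]; exact pow_orderOf_eq_one ζ
    rw [← Units.val_pow_eq_pow_val, this, Units.val_one]
  have hζn : (ζ : F) ^ (m + 1) ≠ 1 := by
    intro h
    apply hrn
    have : ζ ^ (m + 1) = 1 := by
      apply Units.ext
      rw [Units.val_pow_eq_pow_val, h, Units.val_one]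
    rw [← hζ]
    exact orderOf_dvd_of_pow_eq_one this
  have hζ0 : (ζ : F) ≠ 0 := ζ.ne_zero
  -- the diagonal matrix
  obtain ⟨d, hd⟩ : ∃ d : Fin (m + 1) → F,
      d = Fin.snoc (fun _ : Fin m => (ζ : F)) (((ζ : F)⁻¹) ^ m) := ⟨_, rfl⟩
  have hd0 : ∀ j : Fin m, d (Fin.castSucc j) = (ζ : F) := by
    intro j; rw [hd, Fin.snoc_castSucc]
  have hd1 : d (Fin.last m) = ((ζ : F)⁻¹) ^ m := by
    rw [hd, Fin.snoc_last]
  have hdet : (Matrix.diagonal d).det = 1 := by
    rw [Matrix.det_diagonal, Fin.prod_univ_castSucc, hd1]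
    simp only [hd0, Finset.prod_const, Finset.card_univ, Fintype.card_fin]
    rw [← mul_pow, mul_inv_cancel₀ hζ0, one_pow]
  have hdr : ∀ i, d i ^ r = 1 := by
    intro i
    refine Fin.lastCases ?_ (fun j => ?_) i
    · rw [hd1, ← pow_mul, mul_comm, pow_mul, inv_pow, hζr, inv_one, one_pow]
    · rw [hd0]
      exact hζr
  obtain ⟨z, hz⟩ : ∃ z : Matrix.SpecialLinearGroup (Fin (m + 1)) F,
      (z : Matrix (Fin (m + 1)) (Fin (m + 1)) F) = Matrix.diagonal d :=
    ⟨⟨Matrix.diagonal d, hdet⟩, rfl⟩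
  have hzr : z ^ r = 1 := by
    apply Subtype.ext
    rw [Matrix.SpecialLinearGroup.coe_pow, hz, Matrix.diagonal_pow]
    have : d ^ r = 1 := by
      funext i
      exact hdr i
    rw [this]
    exact Matrix.diagonal_one
  have hzc : z ∉ Subgroup.center (Matrix.SpecialLinearGroup (Fin (m + 1)) F) := by
    intro hzc
    rw [Matrix.SpecialLinearGroup.mem_center_iff] at hzc
    obtain ⟨c, -, hc⟩ := hzc
    rw [hz] at hc
    have e0 : c = (ζ : F) := by
      have := congrFun (congrFun hc (Fin.castSucc ⟨0, hm1⟩)) (Fin.castSucc ⟨0, hm1⟩)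
      rw [Matrix.diagonal_apply_eq, hd0] at this
      rw [← this]
      simp [Matrix.scalar_apply]
    have e1 : c = ((ζ : F)⁻¹) ^ m := by
      have := congrFun (congrFun hc (Fin.last m)) (Fin.last m)
      rw [Matrix.diagonal_apply_eq, hd1] at this
      rw [← this]
      simp [Matrix.scalar_apply]
    apply hζn
    have : (ζ : F) = ((ζ : F)⁻¹) ^ m := e0.symm.trans e1
    calc (ζ : F) ^ (m + 1) = (ζ : F) ^ m * (ζ : F) := pow_succ _ _
      _ = (ζ : F) ^ m * ((ζ : F)⁻¹) ^ m := by rw [← this]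
      _ = 1 := by rw [← mul_pow, mul_inv_cancel₀ hζ0, one_pow]
  refine ⟨QuotientGroup.mk z, ?_⟩
  apply orderOf_eq_prime
  · rw [← QuotientGroup.mk_pow, hzr]
    rfl
  · intro h
    exact hzc ((QuotientGroup.eq_one_iff z).mp h)

end Cfsg.Agent.Lib.Helper1.SpecProd
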